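import Mathlib

set_option autoImplicit false

namespace Cfsg.Agent.Lib.Helper68

open MulAction

/-- If every non-identity element of a nontrivial finite group `K` acting on a finite set fixes
exactly one point, then `K` has a global fixed point. -/
theorem exists_fixed_point_of_unique {K Ω : Type*} [Group K] [Finite K] [MulAction K Ω] [Finite Ω]
    [Nontrivial K] (h : ∀ k : K, k ≠ 1 → ∃! ω : Ω, k • ω = ω) : ∃ ω : Ω, ∀ k : K, k • ω = ω := by
  classical
  have := Fintype.ofFinite K
  have := Fintype.ofFinite Ω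
  have : Fintype (orbitRel.Quotient K Ω) := Fintype.ofFinite _
  by_contra hno
  push Not at hno
  set n := Nat.card K with hn
  have hn2 : 2 ≤ n := by
    rw [hn, Nat.card_eq_fintype_card]
    exact Fintype.one_lt_card
  -- Burnside
  have burn : ∑ g : K, Nat.card (fixedBy Ω g) = Nat.card (orbitRel.Quotient K Ω) * n := by
    have := sum_card_fixedBy_eq_card_orbits_mul_card_group K Ω
    simp only [hn, Nat.card_eq_fintype_card]
    convert this
  have hfix1 : ∀ k : K, k ≠ 1 → Nat.card (fixedBy Ω k) = 1 := by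
    intro k hk
    obtain ⟨ω, hω, huniq⟩ := h k hk
    rw [Nat.card_eq_one_iff_unique]
    exact ⟨⟨fun a b => Subtype.ext ((huniq a a.2).trans (huniq b b.2).symm)⟩, ⟨⟨ω, hω⟩⟩⟩
  have hfix0 : Nat.card (fixedBy Ω (1 : K)) = Nat.card Ω := by
    apply Nat.card_congr
    exact Equiv.subtypeUnivEquiv (by simp)
  have hsum : ∑ g : K, Nat.card (fixedBy Ω g) = Nat.card Ω + (n - 1) := by
    rw [← Finset.add_sum_erase Finset.univ _ (Finset.mem_univ (1 : K)), hfix0]
    congr 1
    rw [Finset.sum_congr rfl (fun k hk => hfix1 k (Finset.ne_of_mem_erase hk))]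
    simp [hn, Nat.card_eq_fintype_card]
  -- class formula
  set a : orbitRel.Quotient K Ω → ℕ := fun q => (stabilizer K q.out).index with ha
  have cls : Nat.card Ω = ∑ q : orbitRel.Quotient K Ω, a q := by
    rw [Nat.card_congr (selfEquivSigmaOrbitsQuotientStabilizer K Ω), Nat.card_sigma]
    rfl
  have hadvd : ∀ q, a q ∣ n := fun q => Subgroup.index_dvd_card _
  have hane1 : ∀ q, a q ≠ 1 := by
    intro q h1
    rw [ha] at h1
    simp only [Subgroup.index_eq_one] at h1
    obtain ⟨k, hk⟩ := hno q.out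
    apply hk
    have : k ∈ stabilizer K q.out := by rw [h1]; trivial
    exact this
  have hapos : ∀ q, 0 < a q := fun q => Nat.pos_of_ne_zero (Subgroup.index_ne_zero_of_finite)
  have hale : ∀ q, a q ≤ n := fun q => Nat.le_of_dvd (by omega) (hadvd q)
  have hdich : ∀ q, a q = n ∨ 2 * a q ≤ n := by
    intro q
    obtain ⟨c, hc⟩ := hadvd q
    rcases Nat.lt_or_ge c 2 with hc2 | hc2
    · left
      interval_cases c
      · omega
      · omega
    · right
      calc 2 * a q = a q * 2 := by ring
        _ ≤ a q * c := Nat.mul_le_mul_left _ hc2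
        _ = n := hc.symm
  set t : orbitRel.Quotient K Ω → ℕ := fun q => n - a q with ht
  have hta : ∀ q, t q + a q = n := fun q => Nat.sub_add_cancel (hale q)
  have htsum : ∑ q, t q = n - 1 := by
    have h1 : ∑ q, t q + ∑ q, a q = Nat.card (orbitRel.Quotient K Ω) * n := by
      rw [← Finset.sum_add_distrib, Finset.sum_congr rfl (fun q _ => hta q)]
      simp [Nat.card_eq_fintype_card]
    rw [← burn, hsum, cls] at h1
    omega
  have hne : ∑ q, t q ≠ 0 := by omega
  obtain ⟨q₁, -, hq₁⟩ := Finset.exists_ne_zero_of_sum_ne_zero hne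
  have h2q₁ : n ≤ 2 * t q₁ := by
    have := hta q₁
    rcases hdich q₁ with h1 | h1 <;> omega
  have hq₁le : t q₁ ≤ n - 2 := by
    have := hta q₁
    have := hapos q₁
    have := hane1 q₁
    omega
  have hsplit := Finset.add_sum_erase Finset.univ t (Finset.mem_univ q₁)
  have hne2 : ∑ q ∈ Finset.univ.erase q₁, t q ≠ 0 := by omega
  obtain ⟨q₂, hq₂mem, hq₂⟩ := Finset.exists_ne_zero_of_sum_ne_zero hne2
  have h2q₂ : n ≤ 2 * t q₂ := by
    have := hta q₂
    rcases hdich q₂ with h1 | h1 <;> omega
  have hle2 : t q₂ ≤ ∑ q ∈ Finset.univ.erase q₁, t q :=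
    Finset.single_le_sum (f := t) (fun _ _ => Nat.zero_le _) hq₂mem
  omega

end Cfsg.Agent.Lib.Helper68
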