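import Mathlib
import Cfsg.Agent.Lib.Helper68.Subnormalizer

set_option autoImplicit false
open Cfsg Subgroup

namespace Cfsg.Agent.Lib.Helper68.Casolo

open scoped Classical

section Main

variable {G : Type*} [Group G] [Fintype G] [Fintype (Subgroup G)]

/-- Moebius-type weights above `H`. -/
noncomputable def wt (H : Subgroup G) : Subgroup G → ℤ :=
  WellFounded.fix (wellFounded_lt (α := Subgroup G))
    (fun T ih => 1 - ∑ T' : {T' : Subgroup G // T' < T}, if H < T'.1 then ih T'.1 T'.2 else 0)

theorem wt_eq (H T : Subgroup G) :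
    wt H T = 1 - ∑ T' ∈ Finset.univ.filter (fun T' : Subgroup G => H < T' ∧ T' < T), wt H T' := by
  unfold wt
  rw [WellFounded.fix_eq]
  congr 1
  have h1 : Finset.univ.filter (fun T' : Subgroup G => H < T' ∧ T' < T) =
      (Finset.univ.filter (fun T' : Subgroup G => T' < T)).filter (fun T' => H < T') := by
    ext x; simp [and_comm]
  rw [h1, Finset.sum_filter]
  rw [Finset.sum_subtype (p := fun T' : Subgroup G => T' < T) _ (by simp)]

theorem wt_sum {H T : Subgroup G} (hT : H < T) :
    ∑ T' ∈ Finset.univ.filter (fun T' : Subgroup G => H < T' ∧ T' ≤ T), wt H T' = 1 := by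
  have h1 : Finset.univ.filter (fun T' : Subgroup G => H < T' ∧ T' ≤ T) =
      insert T (Finset.univ.filter (fun T' : Subgroup G => H < T' ∧ T' < T)) := by
    ext x
    simp only [Finset.mem_filter, Finset.mem_univ, true_and, Finset.mem_insert]
    constructor
    · rintro ⟨h1, h2⟩
      rcases h2.eq_or_lt with h | h
      · left; exact h
      · right; exact ⟨h1, h⟩
    · rintro (rfl | ⟨h1, h2⟩)
      · exact ⟨hT, le_rfl⟩
      · exact ⟨h1, h2.le⟩
  rw [h1, Finset.sum_insert (by simp), wt_eq H T]
  ring

/-- the cone lemma -/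
theorem cone {H : Subgroup G} (w : Subgroup G → ℤ)
    (hw : ∀ T, H < T → ∑ T' ∈ Finset.univ.filter (fun T' : Subgroup G => H < T' ∧ T' ≤ T), w T' = 1)
    (U : Finset (Subgroup G)) (hU1 : ∀ T ∈ U, H < T)
    (hU2 : ∀ T ∈ U, ∀ T', H < T' → T' ≤ T → T' ∈ U) (T0 : Subgroup G) (hT0 : T0 ∈ U)
    (hjoin : ∀ T ∈ U, T ⊔ T0 ∈ U) : ∑ T ∈ U, w T = 1 := by
  set W : Subgroup G → ℤ := fun M => ∑ T ∈ U.filter (fun T => T ⊔ T0 = M), w T with hW
  -- partial sums
  have hpart : ∀ M ∈ U, T0 ≤ M → ∑ M' ∈ U.filter (fun M' => T0 ≤ M' ∧ M' ≤ M), W M' = 1 := by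
    intro M hM hTM
    rw [← hw M (hU1 M hM)]
    have h1 : Finset.univ.filter (fun T' : Subgroup G => H < T' ∧ T' ≤ M) =
        U.filter (fun T => T ⊔ T0 ∈ U.filter (fun M' => T0 ≤ M' ∧ M' ≤ M)) := by
      ext x
      simp only [Finset.mem_filter, Finset.mem_univ, true_and]
      constructor
      · rintro ⟨h1, h2⟩
        have hx := hU2 M hM x h1 h2
        exact ⟨hx, hjoin x hx, le_sup_right, sup_le h2 hTM⟩
      · rintro ⟨h1, -, -, h2⟩
        exact ⟨hU1 x h1, le_sup_left.trans h2⟩
    rw [h1, hW]
    simp only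
    have := Finset.sum_fiberwise_eq_sum_filter U (U.filter (fun M' => T0 ≤ M' ∧ M' ≤ M))
      (fun T => T ⊔ T0) w
    convert this
  have key : ∀ M, M ∈ U → T0 ≤ M → W M = if M = T0 then 1 else 0 := by
    intro M
    induction M using WellFoundedLT.induction with
    | ind M ih =>
      intro hM hTM
      have h1 := hpart M hM hTM
      have h2 : U.filter (fun M' => T0 ≤ M' ∧ M' ≤ M) =
          insert M (U.filter (fun M' => T0 ≤ M' ∧ M' < M)) := by
        ext x
        simp only [Finset.mem_filter, Finset.mem_insert]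
        constructor
        · rintro ⟨h1, h2, h3⟩
          rcases h3.eq_or_lt with h | h
          · left; exact h
          · right; exact ⟨h1, h2, h⟩
        · rintro (rfl | ⟨h1, h2, h3⟩)
          · exact ⟨hM, hTM, le_rfl⟩
          · exact ⟨h1, h2, h3.le⟩
      rw [h2, Finset.sum_insert (by simp)] at h1
      have h3 : ∑ M' ∈ U.filter (fun M' => T0 ≤ M' ∧ M' < M), W M' =
          ∑ M' ∈ U.filter (fun M' => T0 ≤ M' ∧ M' < M), if M' = T0 then 1 else 0 := by
        apply Finset.sum_congr rfl
        intro x hx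
        simp only [Finset.mem_filter] at hx
        exact ih x hx.2.2 hx.1 hx.2.1
      rw [h3, Finset.sum_ite_eq'] at h1
      by_cases hMT : M = T0
      · subst hMT
        simp at h1 ⊢
        exact h1
      · have : T0 < M := lt_of_le_of_ne hTM (Ne.symm hMT)
        simp [hT0, this, hMT] at h1 ⊢
        exact h1
  have h4 : ∑ T ∈ U, w T = ∑ M' ∈ U.filter (fun M' => T0 ≤ M'), W M' := by
    rw [hW]
    simp only
    have := Finset.sum_fiberwise_eq_sum_filter U (U.filter (fun M' => T0 ≤ M'))
      (fun T => T ⊔ T0) w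
    have h6 : U.filter (fun T => T ⊔ T0 ∈ U.filter (fun M' => T0 ≤ M')) = U := by
      ext x
      simp only [Finset.mem_filter]
      constructor
      · intro hx; exact hx.1
      · intro hx; exact ⟨hx, hjoin x hx, le_sup_right⟩
    rw [h6] at this
    rw [← this]
  rw [h4]
  have h5 : ∑ M' ∈ U.filter (fun M' => T0 ≤ M'), W M' =
      ∑ M' ∈ U.filter (fun M' => T0 ≤ M'), if M' = T0 then 1 else 0 := by
    apply Finset.sum_congr rfl
    intro x hx
    simp only [Finset.mem_filter] at hx
    exact key x hx.1 hx.2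
  rw [h5, Finset.sum_ite_eq']
  simp [hT0]

/-- relative subnormalizer membership -/
def InSn (p : ℕ) (K T : Subgroup G) (g : G) : Prop :=
  g ∈ K ∧ ∃ M : Subgroup G, IsPGroup p M ∧ M ≤ K ∧ T ≤ M ∧ g ∈ normalizer (M : Set G)

/-- maximal `p`-subgroups of `K` -/
def IsSyl (p : ℕ) (K R : Subgroup G) : Prop :=
  IsPGroup p R ∧ R ≤ K ∧ ∀ R' : Subgroup G, IsPGroup p R' → R' ≤ K → R ≤ R' → R' = R

noncomputable def cA (p : ℕ) (K T : Subgroup G) : ℤ :=
  ((Finset.univ.filter (fun g : G => InSn p K T g)).card : ℤ)

noncomputable def nK (K R : Subgroup G) : ℤ :=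
  ((Finset.univ.filter (fun g : G => g ∈ K ∧ g ∈ normalizer (R : Set G))).card : ℤ)

noncomputable def cB (p : ℕ) (K T : Subgroup G) : ℤ :=
  ∑ R ∈ Finset.univ.filter (fun R : Subgroup G => IsSyl p K R ∧ T ≤ R), nK K R

variable {p : ℕ}

theorem exists_isSyl {K T : Subgroup G} (hT : IsPGroup p T) (hTK : T ≤ K) :
    ∃ R, IsSyl p K R ∧ T ≤ R := by
  have hfin : {R : Subgroup G | IsPGroup p R ∧ R ≤ K}.Finite := Set.toFinite _
  obtain ⟨R, hle, ⟨hRp, hRK⟩, hmax⟩ := hfin.exists_le_maximal (a := T) ⟨hT, hTK⟩
  exact ⟨R, ⟨hRp, hRK, fun R' h1 h2 h3 => le_antisymm (hmax ⟨h1, h2⟩ h3) h3⟩, hle⟩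

theorem cA_eq_zero {K T : Subgroup G} (h : ¬ (IsPGroup p T ∧ T ≤ K)) : cA p K T = 0 := by
  unfold cA
  rw [Nat.cast_eq_zero, Finset.card_eq_zero, Finset.filter_eq_empty_iff]
  rintro g - ⟨-, M, h1, h2, h3, -⟩
  exact h ⟨h1.to_le h3, h3.trans h2⟩

theorem cB_eq_zero {K T : Subgroup G} (h : ¬ (IsPGroup p T ∧ T ≤ K)) : cB p K T = 0 := by
  unfold cB
  rw [Finset.filter_eq_empty_iff.mpr, Finset.sum_empty]
  rintro R - ⟨⟨h1, h2, -⟩, h3⟩
  exact h ⟨h1.to_le h3, h3.trans h2⟩

/-- the total weight -/
theorem total {K H : Subgroup G} (w : Subgroup G → ℤ)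
    (hw : ∀ T, H < T → ∑ T' ∈ Finset.univ.filter (fun T' : Subgroup G => H < T' ∧ T' ≤ T), w T' = 1)
    (hAB : ∀ T, H < T → cA p K T = cB p K T) :
    ∑ g : G, ∑ T ∈ Finset.univ.filter (fun T : Subgroup G => H < T ∧ InSn p K T g), w T =
      ∑ R ∈ Finset.univ.filter (fun R : Subgroup G => IsSyl p K R ∧ H < R), nK K R := by
  have h1 : ∑ g : G, ∑ T ∈ Finset.univ.filter (fun T : Subgroup G => H < T ∧ InSn p K T g), w T =
      ∑ T ∈ Finset.univ.filter (fun T : Subgroup G => H < T), w T * cA p K T := by
    have : ∀ g : G, ∑ T ∈ Finset.univ.filter (fun T : Subgroup G => H < T ∧ InSn p K T g), w T =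
        ∑ T ∈ Finset.univ.filter (fun T : Subgroup G => H < T), if InSn p K T g then w T else 0 := by
      intro g
      rw [← Finset.sum_filter, Finset.filter_filter]
    simp_rw [this]
    rw [Finset.sum_comm]
    apply Finset.sum_congr rfl
    intro T _
    unfold cA
    rw [← Finset.sum_filter, Finset.sum_const, nsmul_eq_mul, mul_comm]
  rw [h1]
  have h2 : ∑ T ∈ Finset.univ.filter (fun T : Subgroup G => H < T), w T * cA p K T =
      ∑ T ∈ Finset.univ.filter (fun T : Subgroup G => H < T),
        ∑ R ∈ Finset.univ.filter (fun R : Subgroup G => IsSyl p K R), if T ≤ R then w T * nK K R else 0 := by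
    apply Finset.sum_congr rfl
    intro T hT
    simp only [Finset.mem_filter, Finset.mem_univ, true_and] at hT
    rw [hAB T hT]
    unfold cB
    rw [Finset.mul_sum, ← Finset.sum_filter, Finset.filter_filter]
  rw [h2, Finset.sum_comm]
  have h3 : Finset.univ.filter (fun R : Subgroup G => IsSyl p K R ∧ H < R) =
      (Finset.univ.filter (fun R : Subgroup G => IsSyl p K R)).filter (fun R => H < R) := by
    rw [Finset.filter_filter]
  rw [h3]
  conv_rhs => rw [Finset.sum_filter]
  apply Finset.sum_congr rfl
  intro R _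
  rw [← Finset.sum_filter, Finset.filter_filter, ← Finset.sum_mul]
  split_ifs with hR
  · rw [hw R hR, one_mul]
  · rw [Finset.filter_eq_empty_iff.mpr, Finset.sum_empty, zero_mul]
    rintro T - ⟨h4, h5⟩
    exact hR (lt_of_lt_of_le h4 h5)

theorem nK_eq_card (K R : Subgroup G) :
    nK K R = (Nat.card ↥(K ⊓ normalizer (R : Set G)) : ℤ) := by
  unfold nK
  congr 1
  rw [Nat.card_eq_fintype_card, Fintype.card_subtype]
  congr 1
  ext x
  simp [mem_inf]

theorem card_subgroupOf_eq (X K : Subgroup G) :
    Nat.card ↥(X.subgroupOf K) = Nat.card ↥(K ⊓ X) := by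
  rw [← inf_subgroupOf_left]
  exact Nat.card_congr (subgroupOfEquivOfLe inf_le_left).toEquiv

theorem isSyl_map [Fact p.Prime] {K : Subgroup G} (P : Sylow p ↥K) :
    IsSyl p K ((P : Subgroup ↥K).map K.subtype) := by
  refine ⟨P.2.map _, map_subtype_le _, ?_⟩
  intro R' h1 h2 h3
  have h4 : (P : Subgroup ↥K) ≤ R'.subgroupOf K := by
    intro x hx
    exact h3 (mem_map_of_mem _ hx)
  have h5 : R'.subgroupOf K = P := P.is_maximal' (h1.comap_subtype (K := K)) h4
  rw [← h5, map_subgroupOf_eq_of_le h2]

theorem exists_sylow_of_isSyl [Fact p.Prime] {K R : Subgroup G} (hR : IsSyl p K R) :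
    ∃ P : Sylow p ↥K, (P : Subgroup ↥K).map K.subtype = R := by
  obtain ⟨P, hP⟩ := (hR.1.comap_subtype (K := K)).exists_le_sylow
  refine ⟨P, ?_⟩
  apply hR.2.2 _ (P.2.map _) (map_subtype_le _)
  have hP' : R.subgroupOf K ≤ P := hP
  have := map_mono (f := K.subtype) hP'
  rwa [map_subgroupOf_eq_of_le hR.2.1] at this

theorem sum_nK [Fact p.Prime] (K : Subgroup G) :
    ∑ R ∈ Finset.univ.filter (fun R : Subgroup G => IsSyl p K R), nK K R = (Nat.card K : ℤ) := by
  haveI : Fintype (Sylow p ↥K) := Fintype.ofFinite _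
  have h1 : Finset.univ.filter (fun R : Subgroup G => IsSyl p K R) =
      (Finset.univ : Finset (Sylow p ↥K)).image
        (fun P : Sylow p ↥K => (P : Subgroup ↥K).map K.subtype) := by
    ext R
    simp only [Finset.mem_filter, Finset.mem_univ, true_and, Finset.mem_image]
    constructor
    · intro hR; exact exists_sylow_of_isSyl hR
    · rintro ⟨P, rfl⟩; exact isSyl_map P
  rw [h1, Finset.sum_image]
  · have h2 : ∀ P : Sylow p ↥K, nK K ((P : Subgroup ↥K).map K.subtype) =
        (Nat.card ↥(normalizer ((P : Subgroup ↥K) : Set ↥K)) : ℤ) := by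
      intro P
      rw [nK_eq_card, ← card_subgroupOf_eq, subgroupOf_normalizer_eq (map_subtype_le _)]
      have : ((P : Subgroup ↥K).map K.subtype).subgroupOf K = P := by
        ext x
        simp [mem_subgroupOf]
      rw [this]
    simp_rw [h2]
    have h3 : ∀ P : Sylow p ↥K, Nat.card (Sylow p ↥K) *
        Nat.card ↥(normalizer ((P : Subgroup ↥K) : Set ↥K)) = Nat.card K := by
      intro P
      rw [P.card_eq_index_normalizer]
      exact index_mul_card _
    have hpos : 0 < Nat.card (Sylow p ↥K) := Nat.card_pos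
    have h4 : (Nat.card (Sylow p ↥K) : ℤ) * ∑ P : Sylow p ↥K,
        (Nat.card ↥(normalizer ((P : Subgroup ↥K) : Set ↥K)) : ℤ) =
        (Nat.card (Sylow p ↥K) : ℤ) * (Nat.card K : ℤ) := by
      rw [Finset.mul_sum]
      have : ∀ P : Sylow p ↥K, (Nat.card (Sylow p ↥K) : ℤ) *
          (Nat.card ↥(normalizer ((P : Subgroup ↥K) : Set ↥K)) : ℤ) = (Nat.card K : ℤ) := by
        intro P
        exact_mod_cast h3 P
      simp_rw [this]
      rw [Finset.sum_const, Finset.card_univ, nsmul_eq_mul, Nat.card_eq_fintype_card (α := Sylow p ↥K)]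
    exact mul_left_cancel₀ (by exact_mod_cast hpos.ne') h4
  · intro P _ Q _ h
    apply Sylow.ext
    exact map_injective K.subtype_injective h

theorem wt_zero [Fact p.Prime] {H : Subgroup G} (w : Subgroup G → ℤ)
    (hw : ∀ T, H < T → ∑ T' ∈ Finset.univ.filter (fun T' : Subgroup G => H < T' ∧ T' ≤ T), w T' = 1) :
    ∀ T : Subgroup G, IsPGroup p T → H < T → ¬ T ≤ normalizer (H : Set G) → w T = 0 := by
  intro T
  induction T using WellFoundedLT.induction with
  | ind T ih =>
    intro hT hHT hTN
    have h1 : H < T ⊓ normalizer (H : Set G) := lt_inf_normalizer' hT hHT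
    have h2 := hw T hHT
    have h3 := hw _ h1
    rw [← Finset.sum_filter_add_sum_filter_not _ (fun T' => T' ≤ normalizer (H : Set G))] at h2
    have h4 : (Finset.univ.filter (fun T' : Subgroup G => H < T' ∧ T' ≤ T)).filter
        (fun T' => T' ≤ normalizer (H : Set G)) =
        Finset.univ.filter (fun T' : Subgroup G => H < T' ∧ T' ≤ T ⊓ normalizer (H : Set G)) := by
      ext x
      simp only [Finset.mem_filter, Finset.mem_univ, true_and, le_inf_iff]
      tauto
    rw [h4, h3] at h2
    have h5 : ∑ x ∈ (Finset.univ.filter (fun T' : Subgroup G => H < T' ∧ T' ≤ T)).filter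
        (fun T' => ¬ T' ≤ normalizer (H : Set G)), w x = w T := by
      apply Finset.sum_eq_single T
      · intro b hb hbT
        simp only [Finset.mem_filter, Finset.mem_univ, true_and] at hb
        exact ih b (lt_of_le_of_ne hb.1.2 hbT) (hT.to_le hb.1.2) hb.1.1 hb.2
      · intro h
        exfalso
        apply h
        simp only [Finset.mem_filter, Finset.mem_univ, true_and]
        exact ⟨⟨hHT, le_rfl⟩, hTN⟩
    rw [h5] at h2
    linarith

theorem mem_normalizer_inf {A B : Subgroup G} {g : G} (hA : g ∈ normalizer (A : Set G))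
    (hB : g ∈ normalizer (B : Set G)) : g ∈ normalizer ((A ⊓ B : Subgroup G) : Set G) := by
  rw [mem_normalizer_iff] at hA hB ⊢
  intro h
  rw [mem_inf, mem_inf, hA h, hB h]

theorem mem_normalizer_sInf {S : Set (Subgroup G)} {g : G}
    (hS : ∀ A ∈ S, g ∈ normalizer (A : Set G)) : g ∈ normalizer ((sInf S : Subgroup G) : Set G) := by
  rw [mem_normalizer_iff]
  intro h
  rw [mem_sInf, mem_sInf]
  constructor
  · intro h1 A hA
    exact (mem_normalizer_iff.mp (hS A hA) h).mp (h1 A hA)
  · intro h1 A hA
    exact (mem_normalizer_iff.mp (hS A hA) h).mpr (h1 A hA)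

theorem inSn_iff_of_le {K H T : Subgroup G} {g : G} (hg : g ∈ normalizer (H : Set G))
    (hT : T ≤ normalizer (H : Set G)) :
    InSn p K T g ↔ InSn p (K ⊓ normalizer (H : Set G)) T g := by
  constructor
  · rintro ⟨hgK, M, hM, hMK, hTM, hgM⟩
    refine ⟨mem_inf.mpr ⟨hgK, hg⟩, M ⊓ normalizer (H : Set G), hM.to_le inf_le_left,
      inf_le_inf_right _ hMK, le_inf hTM hT, mem_normalizer_inf hgM (le_normalizer hg)⟩
  · rintro ⟨hgK, M, hM, hMK, hTM, hgM⟩
    exact ⟨(mem_inf.mp hgK).1, M, hM, hMK.trans inf_le_left, hTM, hgM⟩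

theorem le_of_isSyl_of_normal {K H R : Subgroup G} (hH : IsPGroup p H) (hHK : H ≤ K)
    (hK : K ≤ normalizer (H : Set G)) (hR : IsSyl p K R) : H ≤ R := by
  have h1 : IsPGroup p (R ⊔ H : Subgroup G) :=
    IsPGroup.to_sup_of_normal_right' hR.1 hH (hR.2.1.trans hK)
  have h2 := hR.2.2 _ h1 (sup_le hR.2.1 hHK) le_sup_left
  rw [← h2]
  exact le_sup_right

theorem card_filter_mem (K : Subgroup G) :
    ((Finset.univ.filter (fun g : G => g ∈ K)).card : ℤ) = (Nat.card K : ℤ) := by
  congr 1
  rw [Nat.card_eq_fintype_card, Fintype.card_subtype]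

/-- evaluation of the local weight outside the normalizer -/
theorem eval_out {K H : Subgroup G} (w : Subgroup G → ℤ)
    (hw : ∀ T, H < T → ∑ T' ∈ Finset.univ.filter (fun T' : Subgroup G => H < T' ∧ T' ≤ T), w T' = 1)
    {g : G} (hg : g ∉ normalizer (H : Set G)) :
    ∑ T ∈ Finset.univ.filter (fun T : Subgroup G => H < T ∧ InSn p K T g), w T =
      if InSn p K H g then 1 else 0 := by
  split_ifs with h
  · obtain ⟨hgK, M0, hM0, hM0K, hHM0, hgM0⟩ := h
    set S : Set (Subgroup G) := {M | H ≤ M ∧ g ∈ normalizer (M : Set G)} with hS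
    set T0 : Subgroup G := sInf S with hT0
    have hT0n : g ∈ normalizer (T0 : Set G) := mem_normalizer_sInf (fun A hA => hA.2)
    have hHT0 : H ≤ T0 := le_sInf (fun A hA => hA.1)
    have hlt : H < T0 := by
      refine lt_of_le_of_ne hHT0 ?_
      intro heq
      rw [← heq] at hT0n
      exact hg hT0n
    apply cone w hw _ _ _ T0
    · simp only [Finset.mem_filter, Finset.mem_univ, true_and]
      exact ⟨hlt, hgK, M0, hM0, hM0K, sInf_le ⟨hHM0, hgM0⟩, hgM0⟩
    · intro T hT
      simp only [Finset.mem_filter, Finset.mem_univ, true_and] at hT ⊢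
      obtain ⟨h1, -, M, hM, hMK, hTM, hgM⟩ := hT
      exact ⟨lt_of_lt_of_le h1 le_sup_left, hgK, M, hM, hMK,
        sup_le hTM (sInf_le ⟨h1.le.trans hTM, hgM⟩), hgM⟩
    · intro T hT
      simp only [Finset.mem_filter, Finset.mem_univ, true_and] at hT
      exact hT.1
    · intro T hT T' h1 h2
      simp only [Finset.mem_filter, Finset.mem_univ, true_and] at hT ⊢
      obtain ⟨-, -, M, hM, hMK, hTM, hgM⟩ := hT
      exact ⟨h1, hgK, M, hM, hMK, h2.trans hTM, hgM⟩
  · rw [Finset.filter_eq_empty_iff.mpr, Finset.sum_empty]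
    rintro T - ⟨h1, hgK, M, hM, hMK, hTM, hgM⟩
    exact h ⟨hgK, M, hM, hMK, h1.le.trans hTM, hgM⟩

theorem main [Fact p.Prime] : ∀ (n : ℕ) (K : Subgroup G), Nat.card K = n →
    ∀ H : Subgroup G, IsPGroup p H → H ≤ K → cA p K H = cB p K H := by
  intro n
  induction n using Nat.strong_induction_on with
  | _ n ihn =>
    intro K hK H
    induction H using WellFoundedGT.induction with
    | ind H ihH =>
      intro hH hHK
      by_cases hnorm : K ≤ normalizer (H : Set G)
      · have hA : cA p K H = (Nat.card K : ℤ) := by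
          rw [← card_filter_mem]
          unfold cA
          congr 2
          ext g
          simp only [Finset.mem_filter, Finset.mem_univ, true_and]
          exact ⟨fun h => h.1, fun h => ⟨h, H, hH, hHK, le_rfl, hnorm h⟩⟩
        have hB : cB p K H = ∑ R ∈ Finset.univ.filter (fun R : Subgroup G => IsSyl p K R), nK K R := by
          unfold cB
          congr 1
          ext R
          simp only [Finset.mem_filter, Finset.mem_univ, true_and]
          exact ⟨fun h => h.1, fun h => ⟨h, le_of_isSyl_of_normal hH hHK hnorm h⟩⟩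
        rw [hA, hB, sum_nK]
      · by_cases hsyl : IsSyl p K H
        · have hA : cA p K H = nK K H := by
            unfold cA nK
            congr 2
            ext g
            simp only [Finset.mem_filter, Finset.mem_univ, true_and]
            constructor
            · rintro ⟨hgK, M, hM, hMK, hHM, hgM⟩
              rw [hsyl.2.2 M hM hMK hHM] at hgM
              exact ⟨hgK, hgM⟩
            · rintro ⟨hgK, hg⟩
              exact ⟨hgK, H, hH, hHK, le_rfl, hg⟩
          have hB : cB p K H = nK K H := by
            unfold cB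
            have : Finset.univ.filter (fun R : Subgroup G => IsSyl p K R ∧ H ≤ R) = {H} := by
              ext R
              simp only [Finset.mem_filter, Finset.mem_univ, true_and, Finset.mem_singleton]
              constructor
              · rintro ⟨h1, h2⟩
                exact hsyl.2.2 R h1.1 h1.2.1 h2
              · rintro rfl
                exact ⟨hsyl, le_rfl⟩
            rw [this, Finset.sum_singleton]
          rw [hA, hB]
        · set N : Subgroup G := K ⊓ normalizer (H : Set G) with hN
          have hNK : N < K := by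
            refine lt_of_le_of_ne inf_le_left ?_
            intro h
            exact hnorm (h ▸ inf_le_right)
          have hNlt : Nat.card N < Nat.card K := by
            have h1 : (N : Set G).ncard < (K : Set G).ncard :=
              Set.ncard_lt_ncard (SetLike.coe_ssubset_coe.mpr hNK) (Set.toFinite _)
            rw [← Nat.card_coe_set_eq, ← Nat.card_coe_set_eq] at h1
            exact h1
          have hw : ∀ T, H < T → ∑ T' ∈ Finset.univ.filter
              (fun T' : Subgroup G => H < T' ∧ T' ≤ T), wt H T' = 1 := fun T hT => wt_sum hT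
          have hABK : ∀ T, H < T → cA p K T = cB p K T := by
            intro T hT
            by_cases h : IsPGroup p T ∧ T ≤ K
            · exact ihH T hT h.1 h.2
            · rw [cA_eq_zero h, cB_eq_zero h]
          have hABN : ∀ T, H < T → cA p N T = cB p N T := by
            intro T hT
            by_cases h : IsPGroup p T ∧ T ≤ N
            · exact ihn (Nat.card N) (hK ▸ hNlt) N rfl T h.1 h.2
            · rw [cA_eq_zero h, cB_eq_zero h]
          have totK := total (wt H) hw hABK
          have totN := total (wt H) hw hABN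
          have hBK : ∑ R ∈ Finset.univ.filter (fun R : Subgroup G => IsSyl p K R ∧ H < R), nK K R =
              cB p K H := by
            unfold cB
            congr 1
            ext R
            simp only [Finset.mem_filter, Finset.mem_univ, true_and]
            constructor
            · rintro ⟨h1, h2⟩; exact ⟨h1, h2.le⟩
            · rintro ⟨h1, h2⟩
              refine ⟨h1, lt_of_le_of_ne h2 ?_⟩
              rintro rfl
              exact hsyl h1
          have hBN : ∑ R ∈ Finset.univ.filter (fun R : Subgroup G => IsSyl p N R ∧ H < R), nK N R =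
              (Nat.card N : ℤ) := by
            rw [← sum_nK (p := p) N]
            congr 1
            ext R
            simp only [Finset.mem_filter, Finset.mem_univ, true_and]
            constructor
            · rintro ⟨h1, h2⟩; exact h1
            · intro h1
              have hHN : H ≤ N := le_inf hHK le_normalizer
              refine ⟨h1, lt_of_le_of_ne (le_of_isSyl_of_normal hH hHN inf_le_right h1) ?_⟩
              rintro rfl
              apply hsyl
              refine ⟨hH, hHK, ?_⟩
              intro R' hR' hR'K hHR'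
              by_contra hne
              have hlt : H < R' := lt_of_le_of_ne hHR' (Ne.symm hne)
              have h2 : H < R' ⊓ normalizer (H : Set G) := lt_inf_normalizer' hR' hlt
              have h3 := h1.2.2 _ (hR'.to_le inf_le_left) (inf_le_inf_right _ hR'K) h2.le
              exact h2.ne h3.symm
          rw [hBK] at totK
          rw [hBN] at totN
          -- pointwise
          have hpt : ∀ g : G,
              ∑ T ∈ Finset.univ.filter (fun T : Subgroup G => H < T ∧ InSn p K T g), wt H T =
              ∑ T ∈ Finset.univ.filter (fun T : Subgroup G => H < T ∧ InSn p N T g), wt H T +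
                if (g ∉ N ∧ InSn p K H g) then 1 else 0 := by
            intro g
            by_cases hgN : g ∈ N
            · have hgH : g ∈ normalizer (H : Set G) := (mem_inf.mp hgN).2
              rw [if_neg (by tauto), add_zero]
              symm
              apply Finset.sum_subset
              · intro T hT
                simp only [Finset.mem_filter, Finset.mem_univ, true_and] at hT ⊢
                obtain ⟨h1, hgK, M, hM, hMK, hTM, hgM⟩ := hT
                exact ⟨h1, (mem_inf.mp hgK).1, M, hM, hMK.trans inf_le_left, hTM, hgM⟩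
              · intro T hT hT'
                simp only [Finset.mem_filter, Finset.mem_univ, true_and] at hT hT'
                have hTp : IsPGroup p T := by
                  obtain ⟨-, -, M, hM, -, hTM, -⟩ := hT
                  exact hM.to_le hTM
                apply wt_zero (wt H) hw T hTp hT.1
                intro hTN
                exact hT' ⟨hT.1, (inSn_iff_of_le hgH hTN).mp hT.2⟩
            · have h0 : ∑ T ∈ Finset.univ.filter (fun T : Subgroup G => H < T ∧ InSn p N T g), wt H T
                  = 0 := by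
                rw [Finset.filter_eq_empty_iff.mpr, Finset.sum_empty]
                rintro T - ⟨-, h1, -⟩
                exact hgN h1
              rw [h0, zero_add]
              by_cases hgK : g ∈ K
              · have hgH : g ∉ normalizer (H : Set G) := fun h => hgN (mem_inf.mpr ⟨hgK, h⟩)
                rw [eval_out (wt H) hw hgH]
                simp [hgN]
              · rw [Finset.filter_eq_empty_iff.mpr, Finset.sum_empty, if_neg]
                · rintro ⟨-, h1, -⟩; exact hgK h1
                · rintro T - ⟨-, h1, -⟩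
                  exact hgK h1
          simp_rw [hpt] at totK
          rw [Finset.sum_add_distrib, totN] at totK
          rw [← totK]
          unfold cA
          rw [← card_filter_mem N, ← Finset.sum_filter, Finset.sum_const, nsmul_eq_mul, mul_one,
            ← Nat.cast_add, ← Finset.card_union_of_disjoint]
          · congr 2
            ext g
            simp only [Finset.mem_filter, Finset.mem_univ, true_and, Finset.mem_union]
            constructor
            · intro h
              by_cases hgN : g ∈ N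
              · left; exact hgN
              · right; exact ⟨hgN, h⟩
            · rintro (h | h)
              · exact ⟨(mem_inf.mp h).1, H, hH, hHK, le_rfl, (mem_inf.mp h).2⟩
              · exact h.2
          · rw [Finset.disjoint_filter]
            intro g _ h1 h2
            exact h2.1 h1

end Main

section Final

variable {G : Type*} [Group G] [Finite G] {p : ℕ} [Fact p.Prime]

theorem card_eq_of_fibers {X Y : Type*} [Finite X] [Finite Y] (f : X → Y) (c : ℕ)
    (h : ∀ y, Nat.card {x // f x = y} = c) : Nat.card X = Nat.card Y * c := by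
  haveI := Fintype.ofFinite Y
  rw [← Nat.card_congr (Equiv.sigmaFiberEquiv f), Nat.card_sigma]
  simp [h]

theorem card_normalizer_sylow_eq (P Q : Sylow p G) :
    Nat.card ↥(normalizer ((Q : Subgroup G) : Set G)) =
      Nat.card ↥(normalizer ((P : Subgroup G) : Set G)) := by
  have h1 := index_mul_card (normalizer ((Q : Subgroup G) : Set G))
  have h2 := index_mul_card (normalizer ((P : Subgroup G) : Set G))
  have h3 := Q.card_eq_index_normalizer
  have h4 := P.card_eq_index_normalizer
  have h5 : (normalizer ((Q : Subgroup G) : Set G)).index = Nat.card (Sylow p G) := h3.symm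
  have h6 : (normalizer ((P : Subgroup G) : Set G)).index = Nat.card (Sylow p G) := h4.symm
  rw [h5] at h1
  rw [h6, ← h1] at h2
  exact (Nat.eq_of_mul_eq_mul_left Nat.card_pos h2).symm

/-- **Casolo's theorem**: the subnormalizer of a `p`-subgroup `H` has
`λ_G(H) |N_G(P)|` elements. -/
theorem card_subnormalizer (H : Subgroup G) (hH : IsPGroup p H) (P : Sylow p G) :
    Nat.card {g : G // (H.subgroupOf (H ⊔ zpowers g)).IsSubnormal} =
      Nat.card {Q : Sylow p G // H ≤ (Q : Subgroup G)} *
        Nat.card ↥(normalizer ((P : Subgroup G) : Set G)) := by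
  haveI := Fintype.ofFinite G
  haveI := Fintype.ofFinite (Subgroup G)
  have hmain := main (p := p) _ (⊤ : Subgroup G) rfl H hH le_top
  have hA : cA p (⊤ : Subgroup G) H =
      (Nat.card {g : G // (H.subgroupOf (H ⊔ zpowers g)).IsSubnormal} : ℤ) := by
    unfold cA
    congr 1
    rw [Nat.card_eq_fintype_card, Fintype.card_subtype]
    congr 1
    ext g
    simp only [Finset.mem_filter, Finset.mem_univ, true_and]
    rw [subnormalizer_iff hH]
    constructor
    · rintro ⟨-, M, h1, -, h2, h3⟩; exact ⟨M, h1, h2, h3⟩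
    · rintro ⟨M, h1, h2, h3⟩; exact ⟨mem_top _, M, h1, le_top, h2, h3⟩
  have hB : cB p (⊤ : Subgroup G) H = (Nat.card {Q : Sylow p G // H ≤ (Q : Subgroup G)} : ℤ) *
      (Nat.card ↥(normalizer ((P : Subgroup G) : Set G)) : ℤ) := by
    unfold cB
    have h1 : ∀ R ∈ Finset.univ.filter (fun R : Subgroup G => IsSyl p (⊤ : Subgroup G) R ∧ H ≤ R),
        nK (⊤ : Subgroup G) R = (Nat.card ↥(normalizer ((P : Subgroup G) : Set G)) : ℤ) := by
      intro R hR
      simp only [Finset.mem_filter, Finset.mem_univ, true_and] at hR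
      let Q : Sylow p G := ⟨R, hR.1.1, fun hQ hle => hR.1.2.2 _ hQ le_top hle⟩
      rw [nK_eq_card, top_inf_eq]
      exact_mod_cast card_normalizer_sylow_eq P Q
    rw [Finset.sum_congr rfl h1, Finset.sum_const, nsmul_eq_mul]
    congr 2
    rw [← Fintype.card_subtype, ← Nat.card_eq_fintype_card]
    apply Nat.card_congr
    refine ⟨fun R => ⟨⟨R.1, R.2.1.1, fun hQ hle => R.2.1.2.2 _ hQ le_top hle⟩, R.2.2⟩,
      fun Q => ⟨Q.1.1, ⟨Q.1.2, le_top, fun R' h1 _ h3 => Q.1.is_maximal' h1 h3⟩, Q.2⟩, ?_, ?_⟩
    · intro R; rfl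
    · intro Q; rfl
  rw [hA, hB] at hmain
  exact_mod_cast hmain

theorem map_conj_mul (H : Subgroup G) (a b : G) :
    H.map (MulAut.conj (a * b)).toMonoidHom =
      (H.map (MulAut.conj b).toMonoidHom).map (MulAut.conj a).toMonoidHom := by
  rw [map_map]
  congr 1
  ext x
  simp [mul_assoc]

theorem map_conj_eq_self_iff (H : Subgroup G) (n : G) :
    H.map (MulAut.conj n).toMonoidHom = H ↔ n ∈ normalizer (H : Set G) :=
  mem_normalizer_iff_map_conj_eq.symm

theorem le_inv_smul_iff (H : Subgroup G) (P : Sylow p G) (g : G) :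
    H ≤ ((g⁻¹ • P : Sylow p G) : Subgroup G) ↔ H.map (MulAut.conj g).toMonoidHom ≤ P := by
  rw [Sylow.coe_subgroup_smul, map_le_iff_le_comap]
  constructor
  · intro h x hx
    have := h hx
    rw [Subgroup.mem_pointwise_smul_iff_inv_smul_mem] at this
    simpa using this
  · intro h x hx
    have := h hx
    rw [Subgroup.mem_pointwise_smul_iff_inv_smul_mem]
    simpa using this

theorem card_sylow_containing_mul (H : Subgroup G) (P : Sylow p G) :
    Nat.card {Q : Sylow p G // H ≤ (Q : Subgroup G)} *
        Nat.card ↥(normalizer ((P : Subgroup G) : Set G)) =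
      Nat.card {K : Subgroup G // K ≤ (P : Subgroup G) ∧
        ∃ g : G, K = H.map (MulAut.conj g).toMonoidHom} * Nat.card ↥(normalizer (H : Set G)) := by
  have h1 : Nat.card {g : G // H.map (MulAut.conj g).toMonoidHom ≤ P} =
      Nat.card {Q : Sylow p G // H ≤ (Q : Subgroup G)} *
        Nat.card ↥(normalizer ((P : Subgroup G) : Set G)) := by
    apply card_eq_of_fibers
      (fun g : {g : G // H.map (MulAut.conj g).toMonoidHom ≤ P} =>
        (⟨g.1⁻¹ • P, (le_inv_smul_iff H P g.1).mpr g.2⟩ : {Q : Sylow p G // H ≤ (Q : Subgroup G)}))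
    rintro ⟨Q, hQ⟩
    obtain ⟨g0, hg0⟩ := MulAction.exists_smul_eq G P Q
    apply Nat.card_congr
    refine ⟨fun x => ⟨x.1.1 * g0, ?_⟩, fun n => ⟨⟨n.1 * g0⁻¹, ?_⟩, ?_⟩, ?_, ?_⟩
    · have h := congrArg Subtype.val x.2
      simp only at h
      apply Sylow.smul_eq_iff_mem_normalizer.mp
      rw [mul_smul, hg0]
      generalize x.1.1 = y at h
      rw [← h, smul_smul, mul_inv_cancel, one_smul]
    · rw [← le_inv_smul_iff]
      have hn : n.1⁻¹ • P = P := Sylow.smul_eq_iff_mem_normalizer.mpr (inv_mem n.2)
      rw [mul_inv_rev, inv_inv, mul_smul, hn, hg0]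
      exact hQ
    · apply Subtype.ext
      simp only
      have hn : n.1⁻¹ • P = P := Sylow.smul_eq_iff_mem_normalizer.mpr (inv_mem n.2)
      rw [mul_inv_rev, inv_inv, mul_smul, hn, hg0]
    · intro x
      apply Subtype.ext
      apply Subtype.ext
      simp
    · intro n
      apply Subtype.ext
      simp
  have h2 : Nat.card {g : G // H.map (MulAut.conj g).toMonoidHom ≤ P} =
      Nat.card {K : Subgroup G // K ≤ (P : Subgroup G) ∧
        ∃ g : G, K = H.map (MulAut.conj g).toMonoidHom} * Nat.card ↥(normalizer (H : Set G)) := by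
    apply card_eq_of_fibers
      (fun g : {g : G // H.map (MulAut.conj g).toMonoidHom ≤ P} =>
        (⟨H.map (MulAut.conj g.1).toMonoidHom, g.2, g.1, rfl⟩ :
          {K : Subgroup G // K ≤ (P : Subgroup G) ∧ ∃ g : G, K = H.map (MulAut.conj g).toMonoidHom}))
    rintro ⟨K, hK, g0, rfl⟩
    apply Nat.card_congr
    refine ⟨fun x => ⟨g0⁻¹ * x.1.1, ?_⟩, fun n => ⟨⟨g0 * n.1, ?_⟩, ?_⟩, ?_, ?_⟩
    · have h := congrArg Subtype.val x.2
      simp only at h
      rw [← map_conj_eq_self_iff, map_conj_mul, h, ← map_conj_mul, inv_mul_cancel]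
      ext y
      simp
    · rw [map_conj_mul, (map_conj_eq_self_iff H n.1).mpr n.2]
      exact hK
    · apply Subtype.ext
      simp only
      rw [map_conj_mul, (map_conj_eq_self_iff H n.1).mpr n.2]
    · intro x
      apply Subtype.ext
      apply Subtype.ext
      simp
    · intro n
      apply Subtype.ext
      simp
  rw [← h1, h2]

end Final

end Cfsg.Agent.Lib.Helper68.Casolo
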